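import Cfsg.Agent.Lib.ChevWC.Data
import Cfsg.Agent.Lib.ChevBN.FastData2
import Cfsg.Agent.Lib.Chevalley.All

/-!
Weakly closed subgroups of `U` in the Chevalley groups of the seven tabulated types.
-/

set_option autoImplicit false
set_option linter.unusedSectionVars false

namespace Cfsg.Agent.Lib.ChevWC.Final

open Cfsg.Lie Cfsg.Agent.Lib.ChevBN.Table Cfsg.Agent.Lib.ChevWC.Filt Cfsg.Agent.Lib.ChevWC.Data

variable {F : Type*} [Field F]

/-- Every element of a finite field is a difference of two squares. -/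
theorem exists_sq_sub [Fintype F] (t : F) : ∃ a b : F, t = a ^ 2 - b ^ 2 := by
  by_cases h : ringChar F = 2
  · obtain ⟨s, hs⟩ := FiniteField.isSquare_of_char_two h t
    exact ⟨s, 0, by rw [hs]; ring⟩
  · have h2 : (2 : F) ≠ 0 := Ring.two_ne_zero h
    refine ⟨(t + 1) / 2, (t - 1) / 2, ?_⟩
    field_simp
    ring

/-- The solutions for `k = 1`. -/
theorem vand_one (s : F) : ∃ t₁ t₂ t₃ u₁ u₂ u₃ : F,
      (∀ i, 1 ≤ i → i < 1 → (-t₁) ^ i * u₁ + (-t₂) ^ i * u₂ + (-t₃) ^ i * u₃ = 0) ∧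
        (-t₁) ^ 1 * u₁ + (-t₂) ^ 1 * u₂ + (-t₃) ^ 1 * u₃ = s :=
  ⟨-1, 0, 0, s, 0, 0, fun i h1 h2 => by omega, by simp⟩

/-- The solutions for `k ≤ 3`. -/
theorem vand_le [Fintype F] (h4 : 4 ≤ Fintype.card F) (k : ℕ) (h1 : 1 ≤ k) (h3 : k ≤ 3) (s : F) :
    ∃ t₁ t₂ t₃ u₁ u₂ u₃ : F,
      (∀ i, 1 ≤ i → i < k → (-t₁) ^ i * u₁ + (-t₂) ^ i * u₂ + (-t₃) ^ i * u₃ = 0) ∧
        (-t₁) ^ k * u₁ + (-t₂) ^ k * u₂ + (-t₃) ^ k * u₃ = s := by
  classical
  obtain ⟨x, hx, y, hy, z, hz, hxy, hxz, hyz⟩ : ∃ x ∈ (Finset.univ : Finset F).erase 0,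
      ∃ y ∈ (Finset.univ : Finset F).erase 0, ∃ z ∈ (Finset.univ : Finset F).erase 0,
      x ≠ y ∧ x ≠ z ∧ y ≠ z := by
    apply Finset.two_lt_card.mp
    rw [Finset.card_erase_of_mem (Finset.mem_univ _), Finset.card_univ]
    omega
  have hx0 : x ≠ 0 := (Finset.mem_erase.mp hx).1
  have hy0 : y ≠ 0 := (Finset.mem_erase.mp hy).1
  have hz0 : z ≠ 0 := (Finset.mem_erase.mp hz).1
  have hxy' : x - y ≠ 0 := sub_ne_zero.mpr hxy
  have hxz' : x - z ≠ 0 := sub_ne_zero.mpr hxz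
  have hyz' : y - z ≠ 0 := sub_ne_zero.mpr hyz
  have hyx' : y - x ≠ 0 := sub_ne_zero.mpr hxy.symm
  have hzx' : z - x ≠ 0 := sub_ne_zero.mpr hxz.symm
  have hzy' : z - y ≠ 0 := sub_ne_zero.mpr hyz.symm
  obtain rfl | rfl | rfl : k = 1 ∨ k = 2 ∨ k = 3 := by omega
  · exact vand_one s
  · refine ⟨-x, -y, 0, s / (x * (x - y)), s / (y * (y - x)), 0, ?_, ?_⟩
    · intro i hi1 hi2
      obtain rfl : i = 1 := by omega
      simp only [neg_neg, pow_one, neg_zero, mul_zero, add_zero]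
      field_simp
      ring
    · simp only [neg_neg, neg_zero, mul_zero, add_zero]
      field_simp
      ring
  · refine ⟨-x, -y, -z, s / (x * ((x - y) * (x - z))), s / (y * ((y - x) * (y - z))),
      s / (z * ((z - x) * (z - y))), ?_, ?_⟩
    · intro i hi1 hi2
      obtain rfl | rfl : i = 1 ∨ i = 2 := by omega
      · simp only [neg_neg, pow_one]
        field_simp
        ring
      · simp only [neg_neg]
        field_simp
        ring
    · simp only [neg_neg]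
      field_simp
      ring

/-- From the table of minors to the hypotheses of the theorem. -/
theorem hmin_of [Fintype F] {D : ChevalleyDatum} {kmax : ℕ} {m2 : Bool}
    {tbl : List (ℕ × ℕ × ℕ × ℤ × ℕ)} (hW : WTab D kmax m2 tbl) (h3 : 3 ≤ Fintype.card F)
    (h4 : m2 = true → 4 ≤ Fintype.card F) :
    ∀ k < D.rank, ∀ l < D.rank, k ≠ l → ∃ (v : ℕ → ℤ) (γ : F), γ ≠ 0 ∧
      Ad D v (D.simple l) = 0 ∧ γ ^ (Ad D v (D.simple k)) ≠ 1 := by
  classical
  intro k hk l hl hkl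
  obtain ⟨j₁, -, j₂, -, h0, hM⟩ := hW.minor k hk l hl hkl
  obtain ⟨γ₁, h10, h11⟩ : ∃ γ : F, γ ≠ 0 ∧ γ ≠ 1 := by
    by_contra hcon
    push Not at hcon
    have hle : (Finset.univ : Finset F) ⊆ {0, 1} := by
      intro x _
      by_cases hx : x = 0
      · simp [hx]
      · simp [hcon x hx]
    have := Finset.card_le_card hle
    rw [Finset.card_univ] at this
    have h5 := Finset.card_le_two (a := (0 : F)) (b := 1)
    omega
  rcases hM with hM | hM | ⟨hm, hM⟩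
  · refine ⟨_, γ₁, h10, h0, ?_⟩
    rw [hM, zpow_one]
    exact h11
  · refine ⟨_, γ₁, h10, h0, ?_⟩
    rw [hM, zpow_neg_one]
    exact fun h => h11 (inv_eq_one.mp h)
  · obtain ⟨γ, hγ0, hγ1, hγ2⟩ : ∃ γ : F, γ ≠ 0 ∧ γ ≠ 1 ∧ γ ≠ -1 := by
      by_contra hcon
      push Not at hcon
      have hle : (Finset.univ : Finset F) ⊆ {0, 1, -1} := by
        intro x _
        by_cases hx : x = 0
        · simp [hx]
        · by_cases hx1 : x = 1
          · simp [hx1]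
          · simp [hcon x hx hx1]
      have := Finset.card_le_card hle
      rw [Finset.card_univ] at this
      have h5 := Finset.card_le_three (a := (0 : F)) (b := 1) (c := -1)
      have h6 := h4 hm
      omega
    have hsq : γ ^ 2 ≠ 1 := by
      intro h
      have h6 : (γ - 1) * (γ + 1) = 0 := by linear_combination h
      rcases mul_eq_zero.mp h6 with h' | h'
      · exact hγ1 (sub_eq_zero.mp h')
      · exact hγ2 (eq_neg_of_add_eq_zero_left h')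
    rcases hM with hM | hM
    · refine ⟨_, γ, hγ0, h0, ?_⟩
      rw [hM]
      exact_mod_cast hsq
    · refine ⟨_, γ, hγ0, h0, ?_⟩
      rw [hM, zpow_neg]
      intro h
      apply hsq
      have := inv_eq_one.mp h
      exact_mod_cast this

/-- The theorem for a type with its table. -/
theorem main_of [Fintype F] {D : ChevalleyDatum} {kmax : ℕ} {m2 : Bool}
    {tbl : List (ℕ × ℕ × ℕ × ℤ × ℕ)} (hW : WTab D kmax m2 tbl)
    (hD : D ∈ [chevG2, chevB2, chevD4, chevF4, chevE6, chevE7, chevE8])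
    (h3 : 3 ≤ Fintype.card F) (h4 : m2 = true → 4 ≤ Fintype.card F)
    (hV : ∀ k, 1 ≤ k → k ≤ kmax → ∀ s : F, ∃ t₁ t₂ t₃ u₁ u₂ u₃ : F,
      (∀ i, 1 ≤ i → i < k → (-t₁) ^ i * u₁ + (-t₂) ^ i * u₂ + (-t₃) ^ i * u₃ = 0) ∧
        (-t₁) ^ k * u₁ + (-t₂) ^ k * u₂ + (-t₃) ^ k * u₃ = s)
    {X' : Subgroup (GL D.Idx F)} (hXU : X' ≤ D.posUnipotent F)
    (hwc : ∀ g ∈ D.group F, X'.map (MulAut.conj g).toMonoidHom ≤ D.posUnipotent F →
      X'.map (MulAut.conj g).toMonoidHom = X') :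
    ∃ J : Set ℕ, (∀ j ∈ J, j < D.rank) ∧ X' = D.unipotentRadical F J := by
  obtain ⟨η, hη⟩ := Cfsg.Agent.Lib.Chevalley.All.exists_sys D hD
  have hR := hη F
  have hT := Cfsg.Agent.Lib.ChevBN.FastData.tbl_of_mem hD
  have hT2 := Cfsg.Agent.Lib.ChevBN.FastData.tbl2_of_mem hD
  refine main hR hT hT2 (fun r hr q hq => hW.desc r hr.1 hr q hq) (kmax := kmax) ?_ hV
    (hmin_of hW h3 h4) exists_sq_sub hW.diag hXU hwc
  intro r hr hs
  obtain ⟨w, -, -, hw⟩ := hW.wit r hr.1 hr hs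
  exact ⟨_, _, _, _, hw⟩

/-- The theorem on weakly closed subgroups. -/
theorem weakly_closed [Fintype F] (D : ChevalleyDatum)
    (hD : D ∈ [chevG2, chevB2, chevD4, chevF4, chevE6, chevE7, chevE8])
    (h2 : Fintype.card F ≠ 2) (h3 : D ∈ [chevG2, chevB2, chevD4, chevF4] → Fintype.card F ≠ 3)
    (X' : Subgroup (GL D.Idx F)) (hXU : X' ≤ D.posUnipotent F)
    (hwc : ∀ g ∈ D.group F, X'.map (MulAut.conj g).toMonoidHom ≤ D.posUnipotent F →
      X'.map (MulAut.conj g).toMonoidHom = X') :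
    ∃ J : Set ℕ, (∀ j ∈ J, j < D.rank) ∧ X' = D.unipotentRadical F J := by
  have hc2 : 2 ≤ Fintype.card F := Fintype.one_lt_card
  have hc3 : 3 ≤ Fintype.card F := by omega
  have hlow : ∀ (hm : D ∈ [chevG2, chevB2, chevD4, chevF4]), 4 ≤ Fintype.card F := by
    intro hm
    have := h3 hm
    omega
  have hv3 : 4 ≤ Fintype.card F → ∀ k, 1 ≤ k → k ≤ 3 → ∀ s : F, ∃ t₁ t₂ t₃ u₁ u₂ u₃ : F,
      (∀ i, 1 ≤ i → i < k → (-t₁) ^ i * u₁ + (-t₂) ^ i * u₂ + (-t₃) ^ i * u₃ = 0) ∧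
        (-t₁) ^ k * u₁ + (-t₂) ^ k * u₂ + (-t₃) ^ k * u₃ = s :=
    fun h k h1 h3 s => vand_le h k h1 h3 s
  have hv1 : ∀ k, 1 ≤ k → k ≤ 1 → ∀ s : F, ∃ t₁ t₂ t₃ u₁ u₂ u₃ : F,
      (∀ i, 1 ≤ i → i < k → (-t₁) ^ i * u₁ + (-t₂) ^ i * u₂ + (-t₃) ^ i * u₃ = 0) ∧
        (-t₁) ^ k * u₁ + (-t₂) ^ k * u₂ + (-t₃) ^ k * u₃ = s := by
    intro k h1 h3 s
    obtain rfl : k = 1 := by omega
    exact vand_one s
  have hD' := hD
  simp only [List.mem_cons, List.not_mem_nil, or_false] at hD'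
  rcases hD' with rfl | rfl | rfl | rfl | rfl | rfl | rfl
  · have h := hlow (by simp)
    exact main_of wtabG2 hD hc3 (fun _ => h) (hv3 h) hXU hwc
  · have h := hlow (by simp)
    exact main_of wtabB2 hD hc3 (fun _ => h) (hv3 h) hXU hwc
  · have h := hlow (by simp)
    exact main_of wtabD4 hD hc3 (fun _ => h) (hv3 h) hXU hwc
  · have h := hlow (by simp)
    exact main_of wtabF4 hD hc3 (fun _ => h) (hv3 h) hXU hwc
  · exact main_of wtabE6 hD hc3 (by simp) hv1 hXU hwc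
  · exact main_of wtabE7 hD hc3 (by simp) hv1 hXU hwc
  · exact main_of wtabE8 hD hc3 (by simp) hv1 hXU hwc

end Cfsg.Agent.Lib.ChevWC.Final
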